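import Mathlib
import Cfsg.Prelude.Def_LieTwisted
import Cfsg.Prelude.Def_CaseTheorems
import Cfsg.Prelude.Def_Classical

/-!
# Hering-Kantor-Seitz (S1146): definitions

`Mo G Ω F`: a finite Moufang set with nilpotent root groups `F x` of odd order `n = |Ω| - 1`.
Notation used in all docstrings of `PERM/HKS/*`:
`U = F a`, `H = H2 G a b` (two-point stabiliser), `n = nn univ = |U|`, `m_x = nn (Fx x) = |C_U(x)|`
for `x ∈ H`; for a point set `Δ`: `St` setwise, `Pt` pointwise stabiliser (also called `W`),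
`L F Δ` the group generated by the root elements stabilising `Δ` (it centralises `Pt G Δ`).
Types of sub-Moufang sets: `TA` (AGL(1,2^k), k ≥ 3), `TB` (PSL2(q) on q+1 points, q odd, q = 3
allowed), `TN` (unitary = `FlC`, Ree = `FlD`, on q^3+1 points).
-/

set_option autoImplicit false

namespace CL.HKS

open MulAction Subgroup OnePoint
open scoped MatrixGroups

universe u

/-- Finite Moufang set with nilpotent root groups of odd order. -/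
structure Mo (G Ω : Type u) [Group G] [MulAction G Ω] (F : Ω → Subgroup G) : Prop where
  fa : ∀ g : G, (∀ x : Ω, g • x = x) → g = 1
  fix : ∀ x, ∀ u ∈ F x, u • x = x
  reg : ∀ x y, y ≠ x → ∀ u ∈ F x, u • y = y → u = 1
  utr : ∀ x y z, y ≠ x → z ≠ x → ∃ u ∈ F x, u • y = z
  cj : ∀ (g : G) (x : Ω), ∀ u ∈ F x, g * u * g⁻¹ ∈ F (g • x)
  nil : ∀ x, Group.IsNilpotent (F x)
  odd : ∀ x, Odd (Nat.card (F x))
  three : 3 ≤ Nat.card Ω

section defs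

variable (G : Type u) {Ω : Type u} [Group G] [MulAction G Ω]

/-- Setwise stabiliser. -/
def St (Δ : Set Ω) : Subgroup G where
  carrier := {g | ∀ x, g • x ∈ Δ ↔ x ∈ Δ}
  one_mem' x := by rw [one_smul]
  mul_mem' {g k} hg hk x := by rw [mul_smul, hg, hk]
  inv_mem' {g} hg x := by rw [← hg, smul_inv_smul]

/-- Pointwise stabiliser. -/
def Pt (Δ : Set Ω) : Subgroup G where
  carrier := {g | ∀ x ∈ Δ, g • x = x}
  one_mem' x _ := one_smul G x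
  mul_mem' {g k} hg hk x hx := by rw [mul_smul, hk x hx, hg x hx]
  inv_mem' {g} hg x hx := inv_smul_eq_iff.2 (hg x hx).symm

/-- Two-point stabiliser. -/
def H2 (a b : Ω) : Subgroup G := stabilizer G a ⊓ stabilizer G b

variable {G}

theorem mem_St {Δ : Set Ω} {g : G} : g ∈ St G Δ ↔ ∀ x, g • x ∈ Δ ↔ x ∈ Δ := Iff.rfl
theorem mem_Pt {Δ : Set Ω} {g : G} : g ∈ Pt G Δ ↔ ∀ x ∈ Δ, g • x = x := Iff.rfl
theorem mem_H2 {a b : Ω} {g : G} : g ∈ H2 G a b ↔ g • a = a ∧ g • b = b := Iff.rfl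

variable (Ω) in
/-- Fixed points. -/
def Fx (g : G) : Set Ω := {x | g • x = x}

theorem mem_Fx {g : G} {x : Ω} : x ∈ Fx Ω g ↔ g • x = x := Iff.rfl

/-- Number of points minus one. -/
noncomputable def nn (S : Set Ω) : ℕ := S.ncard - 1

/-- Involution. -/
def Inv (t : G) : Prop := t ≠ 1 ∧ t * t = 1

/-- `g` interchanges `a` and `b`. -/
def Sw (g : G) (a b : Ω) : Prop := g • a = b ∧ g • b = a

variable (F : Ω → Subgroup G)

/-- The little group of `Δ`. -/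
def L (Δ : Set Ω) : Subgroup G := closure {g | ∃ x ∈ Δ, g ∈ F x ∧ g ∈ St G Δ}

/-- Sub-Moufang set. -/
def Geo (Δ : Set Ω) : Prop :=
  3 ≤ Δ.ncard ∧ ∀ x ∈ Δ, ∀ y ∈ Δ, y ≠ x → ∀ u ∈ F x, u • y ∈ Δ → u ∈ St G Δ

/-- `G` is generated by the root groups. -/
def Gen : Prop := L F Set.univ = ⊤

/-- `μ = μ_u` for the pair `(a, b)`, `u ∈ F a`. -/
def Mu (a b : Ω) (u μ : G) : Prop := Sw μ a b ∧ ∃ y ∈ F b, ∃ y' ∈ F b, μ = y * u * y'

/-- Symplectic type: the little group does not act faithfully. -/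
def STy (Δ : Set Ω) : Prop := ∃ z ∈ L F Δ, z ∈ Pt G Δ ∧ z ≠ 1

/-- Type B: the projective line over the field with `q` elements, `q` odd. -/
def TB (Δ : Set Ω) (q : ℕ) : Prop :=
  ∃ (K : Type) (_ : Field K) (_ : Fintype K) (ι : OnePoint K → Ω), Fintype.card K = q ∧ Odd q ∧
    Function.Injective ι ∧ Set.range ι = Δ ∧
    (∀ c : K, ∃ u ∈ F (ι ∞), ∀ x : K, u • ι x = ι (x + c : K)) ∧
    ∃ ω : G, Sw ω (ι ∞) (ι (0 : K)) ∧ ∀ x : K, x ≠ 0 → ω • ι x = ι (-x⁻¹ : K)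

/-- Type A: the affine line over the field with `Q = 2^k ≥ 8` elements. -/
def TA (Δ : Set Ω) (Q : ℕ) : Prop :=
  ∃ (K : Type) (_ : Field K) (_ : Fintype K) (ι : K → Ω), Fintype.card K = Q ∧ Even Q ∧ 8 ≤ Q ∧
    Function.Injective ι ∧ Set.range ι = Δ ∧
    (∀ c : K, c ≠ 0 → ∃ u ∈ F (ι 0), ∀ x : K, u • ι x = ι (c * x)) ∧
    ∃ e : G, ∀ x : K, e • ι x = ι (x + 1)

/-- The root groups of `Δ` are not elementary abelian. -/
def Nea (Δ : Set Ω) : Prop :=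
  ∀ x ∈ Δ, ¬ ((∀ u ∈ F x ⊓ St G Δ, ∀ v ∈ F x ⊓ St G Δ, u * v = v * u) ∧
    ∃ p : ℕ, p.Prime ∧ ∀ u ∈ F x ⊓ St G Δ, u ^ p = 1)

/-- Unitary flavour. -/
def FlC (Δ : Set Ω) (q : ℕ) : Prop :=
  ∀ a ∈ Δ, ∀ b ∈ Δ, a ≠ b → ∃ e ∈ St G Δ, e ∉ Pt G Δ ∧ e ∈ H2 G a b ∧ TB F (Δ ∩ Fx Ω e) q ∧
    e ∈ L F (Δ ∩ Fx Ω e) ∧ ∀ g ∈ St G Δ, g ∈ H2 G a b → g ∈ St G (Δ ∩ Fx Ω e)

/-- Ree flavour: `E / Pt` is an elementary abelian Sylow 2-subgroup of order 8 of `St / Pt`. -/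
def FlD (Δ : Set Ω) (q : ℕ) : Prop :=
  q % 8 = 3 ∧ ∃ E : Subgroup G, Pt G Δ ≤ E ∧ E ≤ L F Δ ⊔ Pt G Δ ∧ (Pt G Δ).relIndex E = 8 ∧
    Odd (E.relIndex (St G Δ)) ∧ (∀ g ∈ E, g * g ∈ Pt G Δ) ∧
    (∀ x ∈ E, ∀ y ∈ E, x ∉ Pt G Δ → y ∉ Pt G Δ → ∃ g ∈ L F Δ,
      (∀ e ∈ E, g * e * g⁻¹ ∈ E) ∧ g * x * g⁻¹ * y⁻¹ ∈ Pt G Δ) ∧
    ∃ e ∈ E, e ∉ Pt G Δ ∧ TB F (Δ ∩ Fx Ω e) q

/-- Type N: unitary or Ree, `q^3 + 1` points. -/
structure TN (Δ : Set Ω) (q : ℕ) : Prop where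
  geo : Geo F Δ
  card : Δ.ncard = q ^ 3 + 1
  nea : Nea F Δ
  inv : ∀ g ∈ St G Δ, g * g ∈ Pt G Δ → g ∉ Pt G Δ → (Δ ∩ Fx Ω g).Nonempty →
    (Δ ∩ Fx Ω g).ncard = q + 1
  fl : FlC F Δ q ∨ FlD F Δ q

def Typ (Δ : Set Ω) : Prop := (∃ Q, TA F Δ Q) ∨ (∃ q, TB F Δ q) ∨ ∃ q, TN F Δ q

/-- Induction hypothesis. -/
def IH : Prop := ∀ Δ : Set Ω, Geo F Δ → Δ ≠ Set.univ → Typ F Δ

/-- Standing hypothesis of the case analysis. -/
structure Hy : Prop extends Mo G Ω F where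
  ih : IH F
  gen : Gen F

/-- The little group has a regular normal subgroup. -/
def RNS : Prop :=
  ∃ E : Subgroup G, E ≤ L F Set.univ ∧ (∀ g ∈ L F Set.univ, ∀ e ∈ E, g * e * g⁻¹ ∈ E) ∧
    (∀ x y : Ω, ∃ e ∈ E, e • x = y) ∧ ∀ e ∈ E, ∀ x : Ω, e • x = x → e = 1

/-- Unitary conclusion (relative to the little group). -/
structure CoreC (q : ℕ) : Prop where
  card : Nat.card Ω = q ^ 3 + 1
  nea : Nea F Set.univ
  ex : ∀ a b : Ω, a ≠ b → ∃ s : G, Inv s ∧ s ∈ H2 G a b ∧ TB F (Fx Ω s) q ∧ s ∈ L F (Fx Ω s) ∧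
    (∀ x ∈ L F Set.univ, Inv x → x ∈ H2 G a b → x = s) ∧
    ∃ x ∈ L F Set.univ, Inv x ∧ x ≠ s ∧ x * s = s * x

/-- Ree conclusion (relative to the little group). -/
structure CoreD (q : ℕ) : Prop where
  mod : q % 8 = 3
  card : Nat.card Ω = q ^ 3 + 1
  nea : Nea F Set.univ
  ex : ∀ a b : Ω, a ≠ b → ∃ t ∈ L F Set.univ, Inv t ∧ t ∈ H2 G a b ∧ TB F (Fx Ω t) q ∧
    ∀ x ∈ L F Set.univ, Inv x → x ∈ H2 G a b → x = t
  syl : ∃ E : Subgroup G, E ≤ L F Set.univ ∧ Nat.card E = 8 ∧ Odd (E.relIndex (L F Set.univ)) ∧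
    (∀ g ∈ E, g * g = 1) ∧ ∀ x ∈ E, ∀ y ∈ E, x ≠ 1 → y ≠ 1 → ∃ g ∈ L F Set.univ,
      (∀ e ∈ E, g * e * g⁻¹ ∈ E) ∧ g * x * g⁻¹ = y

def Con : Prop :=
  RNS F ∨ (∃ q, TB F Set.univ q) ∨ (∃ q, CoreC F q) ∨ ∃ q, CoreD F q

variable (G Ω) in
/-- The isomorphism types, with the degrees. -/
def Iso : Prop :=
  (∃ (K : Type) (_ : Field K) (_ : Fintype K), Nat.card Ω = Fintype.card K + 1 ∧
      Nonempty (G ≃* Matrix.ProjectiveSpecialLinearGroup (Fin 2) K)) ∨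
    (∃ (K : Type) (_ : Field K) (_ : Fintype K) (q : ℕ), Fintype.card K = q ^ 2 ∧
      Nat.card Ω = q ^ 3 + 1 ∧ Nonempty (G ≃* Cfsg.PSU 3 K q)) ∨
    ∃ (K : Type) (_ : Field K) (_ : Fintype K) (m : ℕ), 1 ≤ m ∧ Fintype.card K = 3 ^ (2 * m + 1) ∧
      Nat.card Ω = Fintype.card K ^ 3 + 1 ∧ Nonempty (G ≃* Cfsg.Lie.twistedG2 K (3 ^ m))

variable (Ω) in
/-- An involution with the largest number of fixed points. -/
def Max (t : G) : Prop := Inv t ∧ ∀ s : G, Inv s → (Fx Ω s).ncard ≤ (Fx Ω t).ncard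

variable (G Ω) in
/-- No involution fixes exactly two points. -/
def NoZ : Prop := ∀ s : G, Inv s → (Fx Ω s).ncard ≠ 2

variable (Ω) in
/-- `t` is the only involution commuting with `t` and fixing all fixed points of `t`. -/
def Rk1 (t : G) : Prop := ∀ s : G, Inv s → s * t = t * s → s ∈ Pt G (Fx Ω t) → s = t

variable (Ω) in
/-- No involution commuting with `t` induces a field automorphism on the fixed points of `t`. -/
def NoFld (t : G) : Prop :=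
  ∀ s : G, Inv s → s * t = t * s → s ∉ Pt G (Fx Ω t) → (Fx Ω t ∩ Fx Ω s).ncard ≤ 2

end defs

section mat

variable {K : Type} [Field K]

/-- Upper unitriangular matrix: `x ↦ x + c`. -/
def ux (c : K) : SL(2, K) := ⟨!![1, c; 0, 1], by simp⟩
/-- Lower unitriangular matrix. -/
def lx (c : K) : SL(2, K) := ⟨!![1, 0; c, 1], by simp⟩
/-- Diagonal matrix: `x ↦ c^2 x`. -/
def dg (c : Kˣ) : SL(2, K) := ⟨!![(c : K), 0; 0, ((c⁻¹ : Kˣ) : K)], by simp⟩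
/-- Antidiagonal matrix: `x ↦ -c^2 / x`. -/
def wy (c : Kˣ) : SL(2, K) := ⟨!![0, (c : K); -((c⁻¹ : Kˣ) : K), 0], by simp⟩

end mat

/-- Rich chart of a set of type B at the pair `(a, b)`. -/
structure BR {G Ω : Type u} [Group G] [MulAction G Ω] (F : Ω → Subgroup G) (Δ : Set Ω) (a b : Ω)
    (K : Type) [Field K] [DecidableEq K] where
  ι : OnePoint K → Ω
  φ : SL(2, K) →* G
  inj : Function.Injective ι
  range : Set.range ι = Δ
  ia : ι ∞ = a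
  ib : ι (0 : K) = b
  act : ∀ (m : SL(2, K)) (x : OnePoint K),
    φ m • ι x = ι (Matrix.SpecialLinearGroup.toGL m • x)
  ux_mem : ∀ c : K, φ (ux c) ∈ F a
  lx_mem : ∀ c : K, φ (lx c) ∈ F b
  rangeφ : φ.range = L F Δ
  sem : ∀ g ∈ St G Δ, ∃ (m : GL (Fin 2) K) (σ : K ≃+* K),
    (∀ x : OnePoint K, g • ι x = ι (m • OnePoint.map σ x)) ∧
    ∀ l l' : SL(2, K), (l' : Matrix (Fin 2) (Fin 2) K) * m = m * (l : Matrix (Fin 2) (Fin 2) K).map σ →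
      g * φ l * g⁻¹ = φ l'

/-- `g` acts on `Δ` as an element of `PGL(2, K)`. -/
def BR.Lin {G Ω : Type u} [Group G] [MulAction G Ω] {F : Ω → Subgroup G} {Δ : Set Ω} {a b : Ω}
    {K : Type} [Field K] [DecidableEq K] (B : BR F Δ a b K) (g : G) : Prop :=
  ∃ m : GL (Fin 2) K, ∀ x : OnePoint K, g • B.ι x = B.ι (m • x)

/-- Rich chart of a set of type A at the pair `(a, b)`. -/
structure AR {G Ω : Type u} [Group G] [MulAction G Ω] (F : Ω → Subgroup G) (Δ : Set Ω) (a b : Ω)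
    (K : Type) [Field K] where
  ι : K → Ω
  ε : Multiplicative K →* G
  ν : Kˣ →* G
  two : (2 : K) = 0
  inj : Function.Injective ι
  range : Set.range ι = Δ
  ia : ι 0 = a
  ib : ι 1 = b
  εact : ∀ c x : K, ε (Multiplicative.ofAdd c) • ι x = ι (x + c)
  νact : ∀ (c : Kˣ) (x : K), ν c • ι x = ι (c * x)
  ν_mem : ∀ c, ν c ∈ F a
  νε : ∀ (c : Kˣ) (d : K), ν c * ε (Multiplicative.ofAdd d) * (ν c)⁻¹ = ε (Multiplicative.ofAdd (c * d))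
  memL : ∀ g : G, g ∈ L F Δ ↔ ∃ (c : Kˣ) (d : K), g = ε (Multiplicative.ofAdd d) * ν c
  sem : ∀ g ∈ St G Δ, ∃ (c : Kˣ) (d : K) (σ : K ≃+* K), (∀ x : K, g • ι x = ι (c * σ x + d)) ∧
    ∀ y : K, g * ε (Multiplicative.ofAdd y) * g⁻¹ = ε (Multiplicative.ofAdd (c * σ y))

end CL.HKS
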